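import Cfsg.Agent.H13.SylMult.Bound
import Cfsg.Agent.H36.AutEngineBase

/-!
The facts about the Sylow subgroup and the conjugations, checked on packed permutations of a
straight-line program.
-/

set_option autoImplicit false

namespace Cfsg.Agent.H13.SylMult

open Equiv Cfsg.Agent.H16 Cfsg.Agent.H36 Cfsg.Agent.H36.AutEngine

/-- The positions in the program. -/
structure PermData where
  /-- the program -/
  ctx : Ctx
  /-- the letters -/
  letters : List ℕ
  /-- the conjugating elements -/
  conjs : List ℕ
  /-- points telling apart the elements of the final segments -/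
  bases : List ℕ

variable (R : PermData) (D : Pc) (C : Cert)

/-- Image under a letter. -/
noncomputable def PermData.apL (a x : ℕ) : ℕ := R.ctx.ap (R.ctx.el (getN R.letters a)) x

/-- Image under a word. -/
noncomputable def PermData.apW (w : List ℕ) (x : ℕ) : ℕ :=
  List.rec (motive := fun _ => ℕ) x (fun a _ ih => forceNat ih fun y => R.apL a y) w

/-- Two words agree on all points. -/
noncomputable def PermData.sameW (u v : List ℕ) : Bool :=
  R.ctx.allPts fun x => Nat.beq (R.apW u x) (R.apW v x)

/-- The images of the base under the elements of the last `j` letters. -/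
noncomputable def PermData.keys : ℕ → List (List ℕ)
  | 0 => [R.bases]
  | j + 1 => (List.range D.p).flatMap fun k =>
      (PermData.keys j).map fun K => K.map (iterPt (R.apL (D.n - (j + 1))) k)

/-- The relations hold. -/
noncomputable def PermData.relsOk : Bool :=
  (List.range D.n).all fun a =>
    ((List.range a).all fun b => R.sameW [a, b] (b :: a :: D.tail a b)) &&
      R.sameW (List.replicate D.p a) (D.tail a a)

/-- The letters are independent. -/
noncomputable def PermData.sepOk : Bool :=
  (List.range D.n).all fun i =>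
    (R.keys D (D.n - (i + 1))).all fun K => !natListEq (R.bases.map (R.apL i)) K

/-- One conjugation fact. -/
noncomputable def PermData.conjOk : Eqn → Bool
  | .assoc _ _ => true
  | .fus g l l' _ => (List.range l.length).all fun i =>
      R.ctx.allPts fun x => Nat.beq (R.ctx.ap (R.ctx.el (getN R.conjs g)) (R.apW (l.getD i []) x))
        (R.apW (l'.getD i []) (R.ctx.ap (R.ctx.el (getN R.conjs g)) x))

/-- All the facts. -/
noncomputable def PermData.ok : Bool :=
  R.relsOk D && R.sepOk D && C.eqns.all R.conjOk &&
    R.letters.all (fun k => Nat.blt k R.ctx.ns) && R.conjs.all (fun k => Nat.blt k R.ctx.ns) &&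
    R.bases.all (fun b => Nat.blt b R.ctx.n) &&
    allFrom R.ctx.slpOk R.ctx.ns 0

variable {R D C}

theorem natListEq_refl : ∀ l : List ℕ, natListEq l l = true
  | [] => rfl
  | x :: l => by
    show (Nat.beq x x && natListEq l l) = true
    rw [natListEq_refl l, Nat.beq_refl]; rfl

theorem exists_perm (σ : Fin R.ctx.gens.length → Perm (Fin R.ctx.n))
    (hσ : ∀ c, R.ctx.Rep (σ c) (getN R.ctx.gens c)) (h : allFrom R.ctx.slpOk R.ctx.ns 0 = true)
    {L : List ℕ} (hL : L.all (fun k => Nat.blt k R.ctx.ns) = true) (a : ℕ) :
    ∃ g : Subgroup.closure (Set.range σ), a < L.length →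
      R.ctx.Rep (g : Perm (Fin R.ctx.n)) (R.ctx.el (getN L a)) := by
  by_cases ha : a < L.length
  · have hk : getN L a < R.ctx.ns := Nat.le_of_ble_eq_true (List.all_eq_true.1 hL _ (getN_mem L ha))
    obtain ⟨g, hg, hr⟩ := Ctx.el_mem σ hσ (fun k hk => allFrom_spec h k (Nat.zero_le _) (by omega)) _ hk
    exact ⟨⟨g, hg⟩, fun _ => hr⟩
  · exact ⟨1, fun h => absurd h ha⟩

/-- The group facts from the permutation checks. -/
theorem groupFacts (σ : Fin R.ctx.gens.length → Perm (Fin R.ctx.n))
    (hσ : ∀ c, R.ctx.Rep (σ c) (getN R.ctx.gens c)) (h : R.ok D C = true)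
    (hn : R.letters.length = D.n) (hp : D.p.Prime) (hok : D.ok C = true) (hrows : C.rowsOk D = true)
    (hc : C.eqns.all (fun q => match q with
      | .assoc _ _ => true
      | .fus g _ _ _ => Nat.blt g R.conjs.length) = true) :
    ∃ E F : ℕ → Subgroup.closure (Set.range σ), GroupFacts D C E F := by
  classical
  simp only [PermData.ok, Bool.and_eq_true] at h
  obtain ⟨⟨⟨⟨⟨⟨hrel, hsep⟩, hconj⟩, hlet⟩, hcj⟩, hbase⟩, hslp⟩ := h
  obtain ⟨hrn, -, -, hswap, hpow⟩ := ok_spec hok
  choose E hE using exists_perm σ hσ hslp hlet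
  choose F hF using exists_perm σ hσ hslp hcj
  have hW : ∀ w : List ℕ, (∀ a ∈ w, a < D.n) → ∀ x : Fin R.ctx.n,
      (((wval E w : Subgroup.closure (Set.range σ)) : Perm (Fin R.ctx.n)) x : ℕ) = R.apW w x := by
    intro w hw x
    induction w with
    | nil => rfl
    | cons a w ih =>
      rw [wval_cons, Subgroup.coe_mul, Perm.mul_apply,
        hE a (hn ▸ hw a List.mem_cons_self), ih fun b hb => hw b (List.mem_cons_of_mem _ hb)]
      simp only [PermData.apW, PermData.apL, forceNat_eq]
  have hsame : ∀ u v : List ℕ, (∀ a ∈ u, a < D.n) → (∀ a ∈ v, a < D.n) → R.sameW u v = true →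
      wval E u = wval E v := fun u v hu hv he =>
    Subtype.ext (Equiv.ext fun x => Fin.ext (by rw [hW u hu, hW v hv]; exact Ctx.pts_spec he x))
  simp only [PermData.relsOk, List.all_eq_true, List.mem_range, Bool.and_eq_true] at hrel
  refine ⟨E, F, ?_, ?_, ?_, ?_⟩
  · intro a b ha hb
    have h2 := hsame [a, b] (b :: a :: D.tail a b) (by simp; omega) ?_ ((hrel a ha).1 b hb)
    · simpa [wval_cons, wval_nil] using h2
    · intro x hx
      rcases List.mem_cons.1 hx with rfl | hx
      · omega
      rcases List.mem_cons.1 hx with rfl | hx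
      · exact ha
      · exact ((hswap a b ha hb).1 x hx).2.1
  · intro a ha
    have h2 := hsame (List.replicate D.p a) (D.tail a a) (fun x hx => by
      rw [List.eq_of_mem_replicate hx]; exact ha) (fun x hx => ((hpow a ha).1 x hx).2) (hrel a ha).2
    rwa [wval_replicate] at h2
  · -- independence
    have hrels : Rels D E (⊥ : Subgroup (Subgroup.closure (Set.range σ))) 0 := by
      refine ⟨bot_le, fun a b ha hb => ⟨1, one_mem _, ?_⟩, fun a ha _ => ⟨1, one_mem _, ?_⟩,
        fun a b ha hb x hx => ⟨((hswap a b ha hb).1 x hx).1, ((hswap a b ha hb).1 x hx).2.1⟩,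
        fun a ha x hx => (hpow a ha).1 x hx⟩
      · have h2 := hsame [a, b] (b :: a :: D.tail a b) (by simp; omega) ?_ ((hrel a ha).1 b hb)
        · simpa [wval_cons, wval_nil] using h2
        · intro x hx
          rcases List.mem_cons.1 hx with rfl | hx
          · omega
          rcases List.mem_cons.1 hx with rfl | hx
          · exact ha
          · exact ((hswap a b ha hb).1 x hx).2.1
      · have h2 := hsame (List.replicate D.p a) (D.tail a a) (fun x hx => by
          rw [List.eq_of_mem_replicate hx]; exact ha) (fun x hx => ((hpow a ha).1 x hx).2) (hrel a ha).2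
        rw [wval_replicate] at h2
        rw [h2, mul_one]
    have hkeys : ∀ j, j ≤ D.n → ∀ y ∈ seg D.n E (⊥ : Subgroup (Subgroup.closure (Set.range σ))) (D.n - j),
        ∀ f : ℕ → ℕ, (∀ x : Fin R.ctx.n, f x = (((y : Perm (Fin R.ctx.n)) x : Fin R.ctx.n) : ℕ)) →
        R.bases.map f ∈ R.keys D j := by
      intro j
      induction j with
      | zero =>
        intro _ y hy f hf
        rw [Nat.sub_zero, seg_top le_rfl, Subgroup.mem_bot] at hy
        subst hy
        simp only [PermData.keys, List.mem_singleton]
        conv_rhs => rw [← List.map_id R.bases]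
        refine List.map_congr_left fun b hb => ?_
        have := hf ⟨b, Nat.le_of_ble_eq_true (List.all_eq_true.1 hbase b hb)⟩
        simpa using this
      | succ j ih =>
        intro hj y hy f hf
        set i := D.n - (j + 1) with hi
        have hin : i < D.n := by omega
        have hsucc : i + 1 = D.n - j := by omega
        rw [seg_eq hin] at hy
        obtain ⟨k, hk, z, hz, rfl⟩ :=
          exists_form hp.pos (mem_normalizer_seg hrels hin) (pow_mem_seg hrels hin (Nat.zero_le _)) hy
        rw [hsucc] at hz
        let g : ℕ → ℕ := fun x => if hx : x < R.ctx.n then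
          (((z : Perm (Fin R.ctx.n)) ⟨x, hx⟩ : Fin R.ctx.n) : ℕ) else 0
        have hg : ∀ x : Fin R.ctx.n, g x = (((z : Perm (Fin R.ctx.n)) x : Fin R.ctx.n) : ℕ) :=
          fun x => by simp [g]
        have hK := ih (by omega) z hz g hg
        simp only [PermData.keys, List.mem_flatMap, List.mem_range, List.mem_map]
        refine ⟨k, hk, R.bases.map g, hK, ?_⟩
        rw [List.map_map]
        refine List.map_congr_left fun b hb => ?_
        have hb' : b < R.ctx.n := Nat.le_of_ble_eq_true (List.all_eq_true.1 hbase b hb)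
        have e1 := hf ⟨b, hb'⟩
        simp only [Function.comp_apply]
        rw [show f b = _ from e1, show g b = _ from hg ⟨b, hb'⟩,
          Ctx.iterPt_spec (D := R.ctx) (f := R.apL (D.n - (j + 1))) (g := ((E i : Subgroup.closure (Set.range σ)) : Perm (Fin R.ctx.n)))
            (fun x => ((hE i (hn ▸ hin)) x).symm) k]
        rw [Subgroup.coe_mul, Subgroup.coe_pow, Perm.mul_apply]
    intro i hi hmem
    rw [show i + 1 = D.n - (D.n - (i + 1)) by omega] at hmem
    have h1 := hkeys _ (by omega) (E i) hmem (R.apL i) fun x => ((hE i (hn ▸ hi)) x).symm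
    simp only [PermData.sepOk, List.all_eq_true, List.mem_range] at hsep
    have h2 := hsep i hi _ h1
    rw [natListEq_refl] at h2
    exact Bool.noConfusion h2
  · intro g l l' π hq i hi
    have hg : g < R.conjs.length := by
      simpa using List.all_eq_true.1 hc _ hq
    have hlen : l.length = l'.length ∧ (∀ w ∈ l ++ l', ∀ x ∈ w, x < D.n) := by
      simp only [Cert.rowsOk, Bool.and_eq_true, List.all_eq_true] at hrows
      obtain ⟨k, hk, hkq⟩ := List.getElem_of_mem hq
      have hlen := Nat.eq_of_beq_eq_true hrows.1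
      have := hrows.2 (C.eqns[k], C.rows[k]'(hlen ▸ hk)) (by
        rw [List.mem_iff_getElem]
        exact ⟨k, by simp [List.length_zip, ← hlen, hk], by simp⟩)
      rw [hkq] at this
      simp only [eqnOk, Eqn.lettersOk, Eqn.shapeOk, Bool.and_eq_true, List.all_eq_true, Nat.blt_eq] at this
      exact ⟨Nat.eq_of_beq_eq_true this.1.1.1.2.1.2, this.1.1.1.1⟩
    have h2 := List.all_eq_true.1 hconj _ hq
    simp only [PermData.conjOk, List.all_eq_true, List.mem_range] at h2
    have h3 := h2 i hi
    have hm : ∀ L : List (List ℕ), (∀ w ∈ L, w ∈ l ++ l') → i < L.length → ∀ x ∈ L.getD i [], x < D.n :=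
      fun L hL hiL x hx => by
        rw [List.getD_eq_getElem _ _ hiL] at hx
        exact hlen.2 _ (hL _ (List.getElem_mem _)) x hx
    refine Subtype.ext (Equiv.ext fun x => Fin.ext ?_)
    rw [Subgroup.coe_mul, Subgroup.coe_mul, Perm.mul_apply, Perm.mul_apply, hF g hg,
      hW _ (hm l (fun w hw => List.mem_append_left _ hw) hi),
      hW _ (hm l' (fun w hw => List.mem_append_right _ hw) (hlen.1 ▸ hi)), hF g hg]
    exact Ctx.pts_spec h3 x

end Cfsg.Agent.H13.SylMult
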